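import Mathlib

set_option autoImplicit false

/-! Interface for the index of the subgroup generated by derangements (S5732). -/

namespace Cfsg.Agent.H9.DG
open MulAction

universe u v

/-- `D` is normal and every element outside `D` fixes exactly one point -/
def Ex (G : Type u) (Ω : Type v) [Group G] [MulAction G Ω] (D : Subgroup G) : Prop :=
  D.Normal ∧ ∀ g : G, g ∉ D → ∃! ω : Ω, g • ω = ω

def P0 : Prop := ∀ (G : Type u) (Ω : Type v) [Group G] [Finite G] [MulAction G Ω] [Finite Ω],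
  IsPretransitive G Ω → Nonempty Ω → Ex G Ω (Subgroup.closure {g : G | ∀ ω : Ω, g • ω ≠ ω})

def Tr : Prop := ∀ (G : Type u) (Ω : Type v) [Group G] [Finite G] [MulAction G Ω] [Finite Ω] (D : Subgroup G),
  IsPretransitive G Ω → Ex G Ω D → IsPretransitive D Ω

def PB : Prop := ∀ (G : Type u) (Ω : Type v) [Group G] [Finite G] [MulAction G Ω] [Finite Ω] (D : Subgroup G),
  IsPretransitive G Ω → Ex G Ω D → ¬ IsPreprimitive G Ω → (D.index + 1) ^ 2 ≤ Nat.card Ω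

def PO : Prop := ∀ (G : Type u) (Ω : Type v) [Group G] [Finite G] [MulAction G Ω] [Finite Ω] (D M : Subgroup G),
  Ex G Ω D → D ≠ ⊤ → M ⊔ D = ⊤ → (∃ c : Ω, (M ⊓ stabilizer G c) ⊔ D = ⊤) ∧
    ∀ a c : Ω, (M ⊓ stabilizer G a) ⊔ D = ⊤ → (M ⊓ stabilizer G c) ⊔ D = ⊤ → ∃ g ∈ M ⊓ D, g • a = c

def PN : Prop := ∀ (G : Type u) (Ω : Type v) [Group G] [Finite G] [MulAction G Ω] [Finite Ω] (D : Subgroup G) (p : ℕ),
  IsPretransitive G Ω → Nonempty Ω → Ex G Ω D → p.Prime → p ∣ Nat.card Ω →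
    D.index + 1 ≤ p ^ (Nat.card Ω).factorization p

/-- `P` is commutative and acts regularly -/
structure Rg {G : Type u} (Ω : Type v) [Group G] [MulAction G Ω] (P : Subgroup G) : Prop where
  comm : ∀ x ∈ P, ∀ y ∈ P, x * y = y * x
  tr : ∀ a b : Ω, ∃ y ∈ P, y • a = b
  sr : ∀ y ∈ P, ∀ a : Ω, y • a = a → y = 1

def PR : Prop := ∀ (G : Type u) (Ω : Type v) [Group G] [Finite G] [MulAction G Ω] [FaithfulSMul G Ω] [Finite Ω]
  (P : Subgroup G) (p : ℕ), p.Prime → IsPreprimitive G Ω → P.Normal → IsPGroup p P → (∀ a b : Ω, ∃ y ∈ P, y • a = b) →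
    Rg Ω P ∧ ∀ y ∈ P, y ^ p = 1

def PC : Prop := ∀ (G : Type u) (Ω : Type v) [Group G] [Finite G] [MulAction G Ω] [FaithfulSMul G Ω] [Finite Ω]
  (p : ℕ) [Fact p.Prime] (P : Sylow p G) (a : Ω), Rg Ω (P : Subgroup G) →
    (∀ g ∈ Subgroup.normalizer ((P : Subgroup G) : Set G), ∀ b : Ω, g • a = a → g • b = b → b ≠ a → g = 1) →
    ∀ y ∈ (P : Subgroup G), y ≠ 1 → ∀ g : G, g * y = y * g → g ∈ (P : Subgroup G)

def P5 : Prop := ∀ (G : Type u) (Ω : Type v) [Group G] [Finite G] [MulAction G Ω] [FaithfulSMul G Ω] [Finite Ω]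
  (P : Subgroup G) (a : Ω) (b : Fin 3 → Ω), Rg Ω P → (∀ y ∈ P, y ≠ 1 → ∀ g : G, g * y = y * g → g ∈ P) →
    (∀ i, b i ≠ a) → (∀ i j, ∀ g : G, g • a = a → g • b i = b j → i = j) →
    ∀ (g : G) (c e : Ω), g • c = c → g • e = e → c ≠ e → g = 1

section
variable {p : ℕ} {H V : Type u} [Group H] [AddCommGroup V] [Module (ZMod p) V]

/-- faithful, elements outside the normal subgroup `K` fix no non-zero vector -/
structure Af (ρ : Representation (ZMod p) H V) (K : Subgroup H) : Prop where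
  inj : Function.Injective ρ
  nrm : K.Normal
  fpf : ∀ h : H, h ∉ K → ∀ v : V, ρ h v = v → v = 0

def Inv (ρ : Representation (ZMod p) H V) (L : Subgroup H) (U : Submodule (ZMod p) V) : Prop :=
  ∀ g ∈ L, ∀ v ∈ U, ρ g v ∈ U

def Irr (ρ : Representation (ZMod p) H V) : Prop := ∀ U : Submodule (ZMod p) V, Inv ρ ⊤ U → U = ⊥ ∨ U = ⊤

/-- semiregular on non-zero vectors -/
def Sr (ρ : Representation (ZMod p) H V) (Z : Subgroup H) : Prop := ∀ z ∈ Z, z ≠ 1 → ∀ v : V, ρ z v = v → v = 0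

def Gd (V : Type u) (K : Subgroup H) : Prop := (K.index + 1) ^ 2 ≤ Nat.card V

/-- symplectic-type section -/
structure St (r : ℕ) (A E : Subgroup H) : Prop where
  le : A ≤ E
  nA : A.Normal
  nE : E.Normal
  cyc : IsCyclic A
  pA : IsPGroup r A
  cen : ∀ a ∈ A, ∀ e ∈ E, a * e = e * a
  zE : ∀ e ∈ E, (∀ f ∈ E, e * f = f * e) → e ∈ A
  com : ∀ e ∈ E, ∀ f ∈ E, e * f * e⁻¹ * f⁻¹ ∈ A
  pw : ∀ e ∈ E, e ^ r ∈ A
end

def L2 : Prop := ∀ (p : ℕ) [Fact p.Prime] (H V : Type u) [Group H] [Finite H] [AddCommGroup V] [Module (ZMod p) V] [Finite V]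
  (ρ : Representation (ZMod p) H V) (K L : Subgroup H) (U U' : Submodule (ZMod p) V) (j : ℕ),
  Af ρ K → Inv ρ L U → Inv ρ L U' → U ≠ ⊥ → U' ≠ ⊥ → Disjoint U U' → (L ⊔ K).index ≤ j →
  (∀ v : V, v ≠ 0 → v ∈ U ∨ v ∈ U' → j ≤ Set.ncard {w : V | ∃ g ∈ L ⊓ K, ρ g v = w}) → Gd V K

def L2z : Prop := ∀ (p : ℕ) [Fact p.Prime] (H V : Type u) [Group H] [Finite H] [AddCommGroup V] [Module (ZMod p) V] [Finite V]
  (ρ : Representation (ZMod p) H V) (K L Z : Subgroup H) (U : Submodule (ZMod p) V),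
  Af ρ K → Inv ρ L U → U ≠ ⊥ → U ≠ ⊤ → Z ≤ L ⊓ K → Sr ρ Z → (L ⊔ K).index ≤ Nat.card Z → Gd V K

def L3 : Prop := ∀ (p : ℕ) [Fact p.Prime] (H V : Type u) [Group H] [Finite H] [AddCommGroup V] [Module (ZMod p) V] [Finite V]
  (ρ : Representation (ZMod p) H V) (K L : Subgroup H) (U : Submodule (ZMod p) V),
  2 ^ 256 ≤ Nat.card V → Af ρ K → Inv ρ L U → U ≠ ⊥ → Nat.card U ^ 3 ≤ Nat.card V →
  L.index ≤ 4 * Module.finrank (ZMod p) V ^ 4 → Gd V K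

def Ind : Prop := ∀ (p : ℕ) [Fact p.Prime] (M ι : Type u) [AddCommGroup M] [Module (ZMod p) M]
  (U : ι → Submodule (ZMod p) M),
  (∀ i j, i ≠ j → ∃ T : M →ₗ[ZMod p] M, (∀ l, ∀ v ∈ U l, T v ∈ U l) ∧ (∀ v ∈ U i, T v = 0) ∧ ∀ v ∈ U j, T v = 0 → v = 0) →
  iSupIndep U ∧ ∀ i j l, i ≠ j → i ≠ l → j ≠ l → Finite M → Nat.card (U i) * Nat.card (U j) * Nat.card (U l) ≤ Nat.card M

def RR : Prop := ∀ (p : ℕ) [Fact p.Prime] (H V : Type u) [Group H] [AddCommGroup V] [Module (ZMod p) V] [Nontrivial V]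
  (ρ : Representation (ZMod p) H V) (r : ℕ) (x z : H), r.Prime → r ≠ p → x ^ r = 1 → z ^ r = 1 → x * z = z * x →
  (∀ v : V, ρ z v = v → v = 0) → ∃ (i : ℕ) (v : V), v ≠ 0 ∧ ρ (x * z ^ i) v = v

def Cy : Prop := ∀ (p : ℕ) [Fact p.Prime] (H V : Type u) [Group H] [Finite H] [AddCommGroup V] [Module (ZMod p) V]
  [Nontrivial V] (ρ : Representation (ZMod p) H V) (r : ℕ) (A : Subgroup H), r.Prime → r ≠ p → IsPGroup r A →
  (∀ x ∈ A, ∀ y ∈ A, x * y = y * x) → Sr ρ A → IsCyclic A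

def C1 : Prop := ∀ (p : ℕ) [Fact p.Prime] (H V : Type u) [Group H] [Finite H] [AddCommGroup V] [Module (ZMod p) V] [Finite V]
  (ρ : Representation (ZMod p) H V) (K A : Subgroup H), 2 ^ 256 ≤ Nat.card V → Af ρ K → Irr ρ → A ≤ K → A.Normal →
  (∀ x ∈ A, ∀ y ∈ A, x * y = y * x) → ¬ Sr ρ A → Gd V K

def C2 : Prop := ∀ (p : ℕ) [Fact p.Prime] (H V : Type u) [Group H] [Finite H] [AddCommGroup V] [Module (ZMod p) V] [Finite V]
  (ρ : Representation (ZMod p) H V) (K Q A : Subgroup H) (r : ℕ) (x : H) (v : V), Af ρ K → r.Prime → Q ≤ K → Q.Normal →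
  A ≤ Q → A.Normal → IsCyclic A → IsPGroup r A → Sr ρ A → (∀ g ∈ Q, (∀ a ∈ A, a * g = g * a) → g ∈ A) →
  x ∈ Q → x ≠ 1 → x ^ r = 1 → v ≠ 0 → ρ x v = v → Gd V K

def C3a : Prop := ∀ (H : Type u) [Group H] [Finite H] (Q A : Subgroup H) (r : ℕ) (x g : H), r.Prime → Q.Normal →
  IsPGroup r Q → A ≤ Q → A.Normal → IsCyclic A →
  (∀ B : Subgroup H, B.Normal → A ≤ B → B ≤ Q → (∀ x ∈ B, ∀ y ∈ B, x * y = y * x) → B = A) →
  g ∈ Q → (∀ a ∈ A, a * g = g * a) → g ∉ A → x ∈ Q → x ∉ A → x ^ r = 1 →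
  ∃ E : Subgroup H, E ≤ Q ∧ St r A E ∧ ∃ y ∈ E, y ∉ A ∧ y ^ r = 1

def C3b : Prop := ∀ (p : ℕ) [Fact p.Prime] (H V : Type u) [Group H] [Finite H] [AddCommGroup V] [Module (ZMod p) V] [Finite V]
  [Nontrivial V] (ρ : Representation (ZMod p) H V) (A E : Subgroup H) (r : ℕ), St r A E → Sr ρ A →
  A.relIndex E ≤ Module.finrank (ZMod p) V ^ 2

def C3c : Prop := ∀ (p : ℕ) [Fact p.Prime] (H V : Type u) [Group H] [Finite H] [AddCommGroup V] [Module (ZMod p) V] [Finite V]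
  (ρ : Representation (ZMod p) H V) (K A E : Subgroup H) (r : ℕ) (y : H), 2 ^ 256 ≤ Nat.card V → Af ρ K → r.Prime → r ≠ p →
  r ≠ 2 → E ≤ K → St r A E → Sr ρ A → y ∈ E → y ∉ A → y ^ r = 1 → Gd V K

def C3d : Prop := ∀ (p : ℕ) [Fact p.Prime] (H V : Type u) [Group H] [Finite H] [AddCommGroup V] [Module (ZMod p) V] [Finite V]
  (ρ : Representation (ZMod p) H V) (K A E : Subgroup H) (x y : H), 2 ^ 256 ≤ Nat.card V → Af ρ K → 2 ≠ p →
  E ≤ K → St 2 A E → Sr ρ A → x ∈ E → y ∈ E → x ∉ A → y ∉ A → x * y ∉ A → x ^ 2 = 1 → y ^ 2 = 1 → x * y = y * x → Gd V K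

def C3e : Prop := ∀ (p : ℕ) [Fact p.Prime] (H V : Type u) [Group H] [Finite H] [AddCommGroup V] [Module (ZMod p) V] [Finite V]
  [Nontrivial V] (ρ : Representation (ZMod p) H V) (K A E : Subgroup H) (x : H), Af ρ K → 2 ≠ p →
  E ≤ K → St 2 A E → Sr ρ A → x ∈ E → x ∉ A → x ^ 2 = 1 →
  (∀ x ∈ E, ∀ y ∈ E, x ∉ A → y ∉ A → x ^ 2 = 1 → y ^ 2 = 1 → x * y = y * x → x * y ∈ A) → Gd V K

def P4 : Prop := ∀ (p : ℕ) [Fact p.Prime] (H V : Type u) [Group H] [Finite H] [AddCommGroup V] [Module (ZMod p) V] [Finite V]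
  (ρ : Representation (ZMod p) H V) (K : Subgroup H) (x : H) (v : V), 2 ^ 256 ≤ Nat.card V → Af ρ K →
  x ≠ 1 → v ≠ 0 → ρ x v = v → Gd V K

def PA : Prop := ∀ (G : Type u) (Ω : Type v) [Group G] [Finite G] [MulAction G Ω] [FaithfulSMul G Ω] [Finite Ω]
  (D P : Subgroup G) (p : ℕ) (x : G) (a b : Ω), p.Prime → Ex G Ω D → P.Normal → P ≤ D → Rg Ω P → (∀ y ∈ P, y ^ p = 1) →
  2 ^ 256 ≤ Nat.card Ω → x ≠ 1 → x • a = a → x • b = b → b ≠ a → (D.index + 1) ^ 2 ≤ Nat.card Ω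

def PP : Prop := ∀ (G : Type u) (Ω : Type v) [Group G] [Finite G] [MulAction G Ω] [FaithfulSMul G Ω] [Finite Ω]
  (D : Subgroup G) (p e : ℕ) (x : G) (a b : Ω), p.Prime → IsPretransitive G Ω → Ex G Ω D → Nat.card Ω = p ^ e →
  2 ^ 256 ≤ Nat.card Ω → x ≠ 1 → x • a = a → x • b = b → b ≠ a → (D.index + 1) ^ 2 ≤ Nat.card Ω

end Cfsg.Agent.H9.DG
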