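import Cfsg.Agent.H9.DG0

set_option autoImplicit false

/-! The affine case: glue. -/

namespace Cfsg.Agent.H9.DG
open MulAction

universe u v

theorem idx_sub {G : Type u} [Group G] {K L : Subgroup G} (hK : K.Normal) (h : L ⊔ K = ⊤) :
    (K.subgroupOf L).index = K.index := by
  have := hK
  rw [← Subgroup.relIndex, ← Subgroup.relIndex_sup_right, h, Subgroup.relIndex_top_right]

section
variable {p : ℕ} [Fact p.Prime] {H V : Type u} [Group H] [Finite H] [AddCommGroup V] [Module (ZMod p) V] [Finite V]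

theorem core (l2z : L2z.{u}) (cy : Cy.{u}) (c1 : C1.{u}) (c2 : C2.{u}) (c3a : C3a.{u}) (c3c : C3c.{u}) (c3d : C3d.{u})
    (c3e : C3e.{u}) (ρ : Representation (ZMod p) H V) (K Q : Subgroup H) (r : ℕ) (x : H) (v : V)
    (hN : 2 ^ 256 ≤ Nat.card V) (h : Af ρ K) (hr : r.Prime) (hQ : Q ≤ K) (nQ : Q.Normal) (pQ : IsPGroup r Q) (xQ : x ∈ Q)
    (x1 : x ≠ 1) (xr : x ^ r = 1) (v0 : v ≠ 0) (xv : ρ x v = v) : Gd V K := by
  classical
  have nt : Nontrivial V := ⟨v, 0, v0⟩
  by_cases irr : Irr ρ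
  swap
  · simp only [Irr, not_forall, not_or] at irr
    obtain ⟨U, i, u0, u1⟩ := irr
    exact l2z p H V ρ K ⊤ ⊥ U h i u0 u1 bot_le (fun z hz z1 => (z1 (Subgroup.mem_bot.1 hz)).elim) (by simp)
  have rp : r ≠ p := by
    rintro rfl
    let U : Submodule (ZMod r) V :=
      { carrier := {w | ∀ g ∈ Q, ρ g w = w}
        add_mem' := fun a b g hg => by rw [map_add, a g hg, b g hg]
        zero_mem' := fun g _ => map_zero _
        smul_mem' := fun c w a g hg => by rw [map_smul, a g hg] }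
    have iU : Inv ρ ⊤ U := fun g _ w hw q hq => by
      have := hw _ (nQ.conj_mem q hq g⁻¹)
      rw [inv_inv] at this
      calc ρ q (ρ g w) = ρ (q * g) w := by rw [map_mul]; rfl
        _ = ρ (g * (g⁻¹ * q * g)) w := by congr 2; group
        _ = ρ g (ρ (g⁻¹ * q * g) w) := by rw [map_mul]; rfl
        _ = _ := by rw [this]
    rcases irr U iU with e | e
    · letI : MulAction Q V :=
        { smul := fun g w => ρ g w
          one_smul := fun w => by change ρ 1 w = w; rw [map_one]; rfl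
          mul_smul := fun a b w => by change ρ (a * b) w = ρ a (ρ b w); rw [map_mul]; rfl }
      have dv : r ∣ Nat.card V := by
        rw [Module.natCard_eq_pow_finrank (K := ZMod r), Nat.card_zmod]
        exact dvd_pow_self _ Module.finrank_pos.ne'
      obtain ⟨b, hb, b0⟩ := pQ.exists_fixed_point_of_prime_dvd_card_of_fixed_point V dv (a := 0)
        (fun g => map_zero (ρ g))
      have : b ∈ U := fun g hg => hb ⟨g, hg⟩
      rw [e] at this
      exact b0 (Submodule.mem_bot _ |>.1 this).symm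
    · refine x1 (h.inj ?_)
      rw [map_one]
      ext w
      have : w ∈ U := e ▸ Submodule.mem_top
      exact this x xQ
  obtain ⟨A, ⟨nA, AQ, cA⟩, mA⟩ := Set.Finite.exists_maximal
    (s := {A : Subgroup H | A.Normal ∧ A ≤ Q ∧ ∀ x ∈ A, ∀ y ∈ A, x * y = y * x}) (Set.toFinite _)
    ⟨⊥, inferInstance, bot_le, fun a ha b hb => by rw [Subgroup.mem_bot.1 ha, Subgroup.mem_bot.1 hb]⟩
  have pA : IsPGroup r A := pQ.to_le AQ
  by_cases sr : Sr ρ A
  swap
  · exact c1 p H V ρ K A hN h irr (AQ.trans hQ) nA cA sr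
  have cyc := cy p H V ρ r A hr rp pA cA sr
  by_cases hc : ∀ g ∈ Q, (∀ a ∈ A, a * g = g * a) → g ∈ A
  · exact c2 p H V ρ K Q A r x v h hr hQ nQ AQ nA cyc pA sr hc xQ x1 xr v0 xv
  simp only [not_forall] at hc
  obtain ⟨g, gQ, gc, gA⟩ := hc
  have xA : x ∉ A := fun a => v0 (sr x a x1 v xv)
  obtain ⟨E, EQ, st, y, yE, yA, yr⟩ := c3a H Q A r x g hr nQ pQ AQ nA cyc
    (fun B nB AB BQ cB => le_antisymm (mA ⟨nB, BQ, cB⟩ AB) AB) gQ gc gA xQ xA xr
  by_cases r2 : r = 2
  swap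
  · exact c3c p H V ρ K A E r y hN h hr rp r2 (EQ.trans hQ) st sr yE yA yr
  subst r2
  by_cases hd : ∀ x ∈ E, ∀ y ∈ E, x ∉ A → y ∉ A → x ^ 2 = 1 → y ^ 2 = 1 → x * y = y * x → x * y ∈ A
  · exact c3e p H V ρ K A E y h rp (EQ.trans hQ) st sr yE yA yr hd
  simp only [not_forall] at hd
  obtain ⟨a, aE, b, bE, aA, bA, a2, b2, ab, abA⟩ := hd
  exact c3d p H V ρ K A E a b hN h rp (EQ.trans hQ) st sr aE bE aA bA abA a2 b2 ab
end

theorem p4_of (l2z : L2z.{u}) (cy : Cy.{u}) (c1 : C1.{u}) (c2 : C2.{u}) (c3a : C3a.{u}) (c3c : C3c.{u}) (c3d : C3d.{u})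
    (c3e : C3e.{u}) : P4.{u} := by
  intro p _ H V _ _ _ _ _ ρ K x v hN h x1 v0 xv
  classical
  have nK := h.nrm
  have o1 : orderOf x ≠ 1 := fun e => x1 (orderOf_eq_one_iff.1 e)
  obtain ⟨r, hr, k, hk⟩ := Nat.exists_prime_and_dvd o1
  have o0 : 0 < orderOf x := orderOf_pos x
  have k0 : 0 < k := Nat.pos_of_ne_zero fun e => by rw [e] at hk; omega
  have y1 : x ^ k ≠ 1 := pow_ne_one_of_lt_orderOf k0.ne' (by have := hr.two_le; nlinarith)
  have yr : (x ^ k) ^ r = 1 := by rw [← pow_mul, mul_comm, ← hk, pow_orderOf_eq_one]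
  have yv : ρ (x ^ k) v = v := by
    clear hk k0 y1 yr
    induction k with
    | zero => rw [pow_zero, map_one]; rfl
    | succ k ih => rw [pow_succ, map_mul]; change ρ (x ^ k) (ρ x v) = v; rw [xv, ih]
  generalize x ^ k = y at *
  have yK : y ∈ K := by by_contra c; exact v0 (h.fpf y c v yv)
  haveI := Fact.mk hr
  have py : IsPGroup r (Subgroup.zpowers (⟨y, yK⟩ : K)) := by
    refine IsPGroup.of_card (n := 1) ?_
    rw [Nat.card_zpowers, pow_one]
    exact orderOf_eq_prime (Subtype.ext yr) (fun e => y1 (congrArg Subtype.val e))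
  obtain ⟨S, hS⟩ := py.exists_le_sylow
  have fr := Sylow.normalizer_sup_eq_top S
  obtain ⟨Q, hQ⟩ : ∃ Q : Subgroup H, Q = (S : Subgroup K).map K.subtype := ⟨_, rfl⟩
  rw [← hQ] at fr
  have QK : Q ≤ K := hQ ▸ Subgroup.map_subtype_le _
  have pQ : IsPGroup r Q := hQ ▸ S.isPGroup'.map _
  have yQ : y ∈ Q := hQ ▸ ⟨_, hS (Subgroup.mem_zpowers _), rfl⟩
  let L := Subgroup.normalizer (Q : Set H)
  have h' : Af (p := p) (V := V) (ρ.comp L.subtype) (K.subgroupOf L) :=
    ⟨h.inj.comp Subtype.val_injective, inferInstance, fun g c w e => h.fpf g c w e⟩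
  have yL : y ∈ L := Subgroup.le_normalizer yQ
  have := core l2z cy c1 c2 c3a c3c c3d c3e (ρ.comp L.subtype) (K.subgroupOf L) (Q.subgroupOf L) r ⟨y, yL⟩ v hN h' hr
    (fun g c => QK c) Subgroup.normal_in_normalizer (pQ.comap_of_injective _ Subtype.val_injective) yQ
    (fun e => y1 (congrArg Subtype.val e)) (Subtype.ext yr) v0 yv
  unfold Gd at this ⊢
  rwa [idx_sub nK fr] at this

end Cfsg.Agent.H9.DG
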