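import Cfsg.Agent.H9.DG1

set_option autoImplicit false

/-! Prime power degree and the final glue. -/

namespace Cfsg.Agent.H9.DG
open MulAction

universe u v

theorem sylow_tr {G : Type u} {Ω : Type v} [Group G] [Finite G] [MulAction G Ω] [Finite Ω] [IsPretransitive G Ω] {p e : ℕ}
    [Fact p.Prime] (P : Sylow p G) (h : Nat.card Ω = p ^ e) (a b : Ω) : ∃ y ∈ (P : Subgroup G), y • a = b := by
  have i1 : (stabilizer G a).index = p ^ e := by rw [index_stabilizer_of_transitive, h]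
  have i2 := Subgroup.relIndex_mul_index (inf_le_left : stabilizer G a ⊓ P ≤ stabilizer G a)
  have i3 := Subgroup.relIndex_mul_index (inf_le_right : stabilizer G a ⊓ P ≤ P)
  have c : (p ^ e).Coprime (P : Subgroup G).index :=
    Nat.Coprime.pow_left _ ((Nat.Prime.coprime_iff_not_dvd Fact.out).2 P.not_dvd_index)
  have d : p ^ e ∣ (stabilizer G a ⊓ P).relIndex P := c.dvd_of_dvd_mul_right (by rw [i3, ← i2, i1]; exact dvd_mul_left _ _)
  have e1 : (stabilizer G a ⊓ P).subgroupOf P = stabilizer (P : Subgroup G) a := by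
    ext g; simp [Subgroup.mem_subgroupOf, mem_stabilizer_iff, Subgroup.smul_def]
  rw [Subgroup.relIndex, e1, index_stabilizer] at d
  have p0 : 0 < (orbit (P : Subgroup G) a).ncard := Set.ncard_pos (Set.toFinite _) |>.2 ⟨a, mem_orbit_self a⟩
  have u : orbit (P : Subgroup G) a = Set.univ :=
    Set.eq_of_subset_of_ncard_le (Set.subset_univ _) (by rw [Set.ncard_univ, h]; exact Nat.le_of_dvd p0 d)
  obtain ⟨y, hy⟩ : b ∈ orbit (P : Subgroup G) a := u ▸ Set.mem_univ b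
  exact ⟨y, y.2, hy⟩

theorem Ex.sub {G : Type u} {Ω : Type v} [Group G] [MulAction G Ω] {D : Subgroup G} (h : Ex G Ω D) (M : Subgroup G) :
    Ex M Ω (D.subgroupOf M) := by
  have := h.1
  exact ⟨inferInstance, fun g c => h.2 g c⟩

theorem Ex.mem {G : Type u} {Ω : Type v} [Group G] [MulAction G Ω] {D : Subgroup G} (h : Ex G Ω D) {g : G} {a b : Ω}
    (ha : g • a = a) (hb : g • b = b) (ab : b ≠ a) : g ∈ D := by
  by_contra c
  exact ab ((h.2 g c).unique hb ha)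

theorem pp_of (tr : Tr.{u, v}) (pb : PB.{u, v}) (pr : PR.{u, v}) (pc : PC.{u, v}) (p5 : P5.{u, v}) (pa : PA.{u, v}) :
    PP.{u, v} := by
  intro G Ω _ _ _ _ _ D p e x a b hp ht h hn hN x1 xa xb ba
  classical
  have := Fact.mk hp
  have nD := h.1
  have tD := tr G Ω D ht h
  obtain ⟨S⟩ : Nonempty (Sylow p D) := inferInstance
  have fr := Sylow.normalizer_sup_eq_top S
  obtain ⟨P, hP⟩ : ∃ P : Subgroup G, P = (S : Subgroup D).map D.subtype := ⟨_, rfl⟩
  rw [← hP] at fr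
  have mP : ∀ y : D, (y : G) ∈ P ↔ y ∈ (S : Subgroup D) := fun y => by
    rw [hP]; exact Subgroup.mem_map_iff_mem Subtype.val_injective
  have PD : P ≤ D := hP ▸ Subgroup.map_subtype_le _
  have pP : IsPGroup p P := hP ▸ S.isPGroup'.map _
  have tP : ∀ c c' : Ω, ∃ y ∈ P, y • c = c' := fun c c' => by
    obtain ⟨y, h1, h2⟩ := sylow_tr S hn c c'
    exact ⟨y, (mP y).2 h1, h2⟩
  let M := Subgroup.normalizer (P : Set G)
  have PM : P ≤ M := Subgroup.le_normalizer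
  have tM : IsPretransitive M Ω := ⟨fun c c' => by
    obtain ⟨y, h1, h2⟩ := tP c c'
    exact ⟨⟨y, PM h1⟩, h2⟩⟩
  have iM : (D.subgroupOf M).index = D.index := idx_sub nD fr
  by_cases prim : IsPreprimitive M Ω
  swap
  · exact iM ▸ pb M Ω _ tM (h.sub M) prim
  obtain ⟨rg, ex⟩ := pr M Ω (P.subgroupOf M) p hp prim Subgroup.normal_in_normalizer
    (pP.comap_of_injective _ Subtype.val_injective) fun c c' => by
      obtain ⟨y, h1, h2⟩ := tP c c'
      exact ⟨⟨y, PM h1⟩, h1, h2⟩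
  by_cases hl : ∃ (l : M) (c : Ω), l ≠ 1 ∧ l • a = a ∧ l • c = c ∧ c ≠ a
  · obtain ⟨l, c, l1, la, lc, ca⟩ := hl
    exact iM ▸ pa M Ω _ _ p l a c hp (h.sub M) Subgroup.normal_in_normalizer (fun g hg => PD hg) rg ex hN l1 la lc ca
  by_cases d3 : D.index ≤ 2
  · calc _ ≤ (2 + 1) ^ 2 := Nat.pow_le_pow_left (by omega) 2
      _ ≤ 2 ^ 256 := by norm_num
      _ ≤ _ := hN
  exfalso
  have rS : Rg Ω (S : Subgroup D) :=
    ⟨fun y hy z hz => Subtype.ext (congrArg (fun g : M => (g : G))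
        (rg.comm ⟨y, PM ((mP y).2 hy)⟩ ((mP y).2 hy) ⟨z, PM ((mP z).2 hz)⟩ ((mP z).2 hz))),
      fun c c' => sylow_tr S hn c c',
      fun y hy c e => Subtype.ext (congrArg (fun g : M => (g : G)) (rg.sr ⟨y, PM ((mP y).2 hy)⟩ ((mP y).2 hy) c e))⟩
  have cS := pc D Ω p S a rS fun g hg c ga gc ca => by
    have gM : (g : G) ∈ M := by
      refine Subgroup.mem_normalizer_iff.2 fun y => ⟨fun hy => ?_, fun hy => ?_⟩
      · exact (mP (g * ⟨y, PD hy⟩ * g⁻¹)).2 ((Subgroup.mem_normalizer_iff.1 hg _).1 ((mP ⟨y, PD hy⟩).1 hy))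
      · have yD : y ∈ D := by
          have := D.mul_mem (D.mul_mem (D.inv_mem g.2) (PD hy)) g.2
          simpa [mul_assoc] using this
        exact (mP ⟨y, yD⟩).2 ((Subgroup.mem_normalizer_iff.1 hg _).2 ((mP (g * ⟨y, yD⟩ * g⁻¹)).1 hy))
    by_contra g1
    exact hl ⟨⟨g, gM⟩, c, fun e => g1 (Subtype.ext (congrArg (fun g : M => (g : G)) e)), ga, gc, ca⟩
  have : Fintype (G ⧸ D) := Fintype.ofFinite _
  obtain ⟨f⟩ : Nonempty (Fin 3 ↪ G ⧸ D) := Function.Embedding.nonempty_of_card_le (by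
    rw [Fintype.card_fin, ← Nat.card_eq_fintype_card, ← Subgroup.index]; omega)
  have rep : ∀ q : G ⧸ D, ∃ g : G, g • a = a ∧ (g : G ⧸ D) = q := fun q => by
    obtain ⟨g, rfl⟩ := QuotientGroup.mk_surjective q
    obtain ⟨y, hy⟩ := exists_smul_eq D a (g⁻¹ • a)
    refine ⟨g * y, ?_, QuotientGroup.mk_mul_of_mem g y.2⟩
    rw [mul_smul, show (y : G) • a = g⁻¹ • a from hy, smul_inv_smul]
  choose t ta tq using rep
  have := p5 D Ω (S : Subgroup D) a (fun i => t (f i) • b) rS cS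
    (fun i e => ba (smul_left_cancel (t (f i)) (e.trans (ta _).symm))) (fun i j g ga gb => by
      have m : (t (f j))⁻¹ * g * t (f i) ∈ D := h.mem (a := a) (b := b)
        (by rw [mul_smul, mul_smul, ta, show (g : G) • a = a from ga, inv_smul_eq_iff, ta])
        (by rw [mul_smul, mul_smul, show (g : G) • t (f i) • b = t (f j) • b from gb, inv_smul_smul]) ba
      have m2 : (t (f j))⁻¹ * t (f i) ∈ D := by
        have := D.mul_mem (D.inv_mem (nD.conj_mem _ g.2 (t (f j))⁻¹)) m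
        simpa [mul_assoc] using this
      have := QuotientGroup.eq.2 m2
      rw [tq, tq] at this
      exact (f.injective this).symm) ⟨x, h.mem xa xb ba⟩ b a xb xa ba
  exact x1 (congrArg Subtype.val this)

theorem main (p0 : P0.{u, v}) (pb : PB.{u, v}) (pn : PN.{u, v}) (pp : PP.{u, v}) :
    ∃ N : ℕ, ∀ (G : Type u) (Ω : Type v) [Group G] [Finite G] [MulAction G Ω] [FaithfulSMul G Ω] [Fintype Ω],
      IsPretransitive G Ω → N ≤ Fintype.card Ω →
      (IsPreprimitive G Ω ∧ (IsPretransitive G Ω ∧ (∃ g : G, g ≠ 1 ∧ ∃ ω : Ω, g • ω = ω) ∧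
        ∀ g : G, g ≠ 1 → Nat.card (fixedBy Ω g) ≤ 1)) ∨
      ((Subgroup.closure {g : G | ∀ ω : Ω, g • ω ≠ ω}).index : ℝ) ≤ Real.sqrt (Fintype.card Ω) - 1 := by
  refine ⟨2 ^ 256, fun G Ω _ _ _ _ _ ht hN => ?_⟩
  rw [← Nat.card_eq_fintype_card] at hN ⊢
  have n4 : 4 ≤ Nat.card Ω := le_trans (by norm_num) hN
  have ne : Nonempty Ω := (Nat.card_pos_iff.1 (by omega)).1
  have h := p0 G Ω ht ne
  have hD : ∀ g : G, (∀ ω : Ω, g • ω ≠ ω) → g ∈ Subgroup.closure {g : G | ∀ ω : Ω, g • ω ≠ ω} :=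
    fun g c => Subgroup.subset_closure c
  generalize Subgroup.closure {g : G | ∀ ω : Ω, g • ω ≠ ω} = D at *
  have fin : (D.index + 1) ^ 2 ≤ Nat.card Ω → (D.index : ℝ) ≤ Real.sqrt (Nat.card Ω) - 1 := fun c => by
    have : ((D.index : ℝ) + 1) ^ 2 ≤ Nat.card Ω := by exact_mod_cast c
    have := Real.le_sqrt_of_sq_le this
    linarith
  by_cases prim : IsPreprimitive G Ω
  swap
  · exact Or.inr (fin (pb G Ω D ht h prim))
  by_cases hx : ∀ g : G, g ≠ 1 → Nat.card (fixedBy Ω g) ≤ 1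
  · by_cases hf : ∃ g : G, g ≠ 1 ∧ ∃ ω : Ω, g • ω = ω
    · exact Or.inl ⟨prim, ht, hf, hx⟩
    · have : D = ⊤ := eq_top_iff.2 fun g _ => by
        by_cases g1 : g = 1
        · exact g1 ▸ D.one_mem
        · exact hD g fun ω e => hf ⟨g, g1, ω, e⟩
      exact Or.inr (fin (by rw [this, Subgroup.index_top]; omega))
  simp only [not_forall, not_le] at hx
  obtain ⟨x, x1, hx⟩ := hx
  obtain ⟨⟨a, xa⟩, ⟨b, xb⟩, ab⟩ := (Finite.one_lt_card_iff_nontrivial.1 hx).exists_pair_ne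
  have ba : b ≠ a := fun e => ab (Subtype.ext e.symm)
  refine Or.inr (fin ?_)
  obtain ⟨p, hp, pd⟩ := Nat.exists_prime_and_dvd (by omega : Nat.card Ω ≠ 1)
  by_cases hq : ∀ {q : ℕ}, q.Prime → q ∣ Nat.card Ω → q = p
  · exact pp G Ω D p _ x a b hp ht h (Nat.eq_prime_pow_of_unique_prime_dvd (by omega) hq) hN x1 xa xb ba
  simp only [not_forall] at hq
  obtain ⟨q, hq, qd, qp⟩ := hq
  have c : (p ^ (Nat.card Ω).factorization p).Coprime (q ^ (Nat.card Ω).factorization q) :=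
    Nat.Coprime.pow _ _ ((Nat.coprime_primes hp hq).2 (Ne.symm qp))
  have := Nat.le_of_dvd (by omega) (c.mul_dvd_of_dvd_of_dvd (Nat.ordProj_dvd _ p) (Nat.ordProj_dvd _ q))
  exact le_trans (by rw [sq]; exact Nat.mul_le_mul (pn G Ω D p ht ne h hp pd) (pn G Ω D q ht ne h hq qd)) this

end Cfsg.Agent.H9.DG
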