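import Cfsg.Agent.Dg.C3b

set_option autoImplicit false

/-! Two commuting involutions. -/

namespace Cfsg.Agent.H9.DG

universe u

def sg (p : ℕ) (b : Bool) : ZMod p := if b then -1 else 1

theorem sg_xor (p : ℕ) (a b : Bool) : sg p (xor a b) = sg p a * sg p b := by cases a <;> cases b <;> simp [sg]

section
variable {p : ℕ} {H V : Type u} [Group H] [AddCommGroup V] [Module (ZMod p) V]

def eig (ρ : Representation (ZMod p) H V) (x y : H) (i : ULift.{u} (Bool × Bool)) : Submodule (ZMod p) V where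
  carrier := {v | ρ x v = sg p i.down.1 • v ∧ ρ y v = sg p i.down.2 • v}
  add_mem' := fun a b => ⟨by rw [map_add, a.1, b.1, smul_add], by rw [map_add, a.2, b.2, smul_add]⟩
  zero_mem' := ⟨by simp, by simp⟩
  smul_mem' := fun c w a => ⟨by rw [map_smul, a.1, smul_comm], by rw [map_smul, a.2, smul_comm]⟩

def Sn (ρ : Representation (ZMod p) H V) (e x : H) (b : Bool) : Prop := ∀ v, ρ x (ρ e v) = sg p b • ρ e (ρ x v)

theorem sn_comm (ρ : Representation (ZMod p) H V) {e x : H} (h : x * e = e * x) : Sn ρ e x false := fun v => by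
  have : ρ (x * e) v = ρ (e * x) v := by rw [h]
  simpa [sg] using this

theorem sn_not {ρ : Representation (ZMod p) H V} {A E : Subgroup H} (st : St 2 A E) (sr : Sr ρ A) {e x : H} (he : e ∈ E)
    (hx : x ∈ E) (x2 : x ^ 2 = 1) (h : x * e ≠ e * x) : Sn ρ e x true := by
  obtain ⟨z, hz⟩ : ∃ z, z = x * e * x⁻¹ * e⁻¹ := ⟨_, rfl⟩
  have zA : z ∈ A := hz ▸ st.com x hx e he
  have z1 : z ≠ 1 := fun c => h (by rw [hz, mul_inv_eq_one, mul_inv_eq_iff_eq_mul] at c; exact c)
  have xx : x * x = 1 := by rwa [← sq]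
  have xi : x⁻¹ = x := inv_eq_of_mul_eq_one_right xx
  have a : x * e = z * (e * x) := by rw [hz]; group
  have zz : z * z = 1 := by
    have b : x * z = z * x := (st.cen z zA x hx).symm
    have c : e * x * e⁻¹ = x * z := by rw [hz, xi]; simp only [← mul_assoc, xx, one_mul]
    have d : (e * x * e⁻¹) * (e * x * e⁻¹) = 1 := by
      calc _ = e * (x * x) * e⁻¹ := by group
        _ = 1 := by rw [xx]; group
    rw [c] at d
    calc z * z = (x * x) * (z * z) := by rw [xx, one_mul]
      _ = x * (x * z) * z := by group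
      _ = x * (z * x) * z := by rw [b]
      _ = 1 := by rw [← d]; group
  have m : ∀ w, ρ z w = -w := fun w => by
    have f : ρ z (ρ z w) = w := by
      have : ρ (z * z) w = w := by rw [zz, map_one]; rfl
      rwa [map_mul] at this
    have := sr z zA z1 (ρ z w + w) (by rw [map_add, f, add_comm])
    exact eq_neg_of_add_eq_zero_left this
  intro v
  have : ρ (x * e) v = ρ (z * (e * x)) v := by rw [a]
  simp only [map_mul, Module.End.mul_apply, m] at this
  simpa [sg] using this

theorem eig_le [Finite V] (ρ : Representation (ZMod p) H V) {x y e : H} {a b : Bool} (ha : Sn ρ e x a) (hb : Sn ρ e y b)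
    (s t : Bool) : Nat.card (eig ρ x y ⟨(s, t)⟩) ≤ Nat.card (eig ρ x y ⟨(xor a s, xor b t)⟩) := by
  refine Nat.card_le_card_of_injective (fun v => ⟨ρ e v, ?_, ?_⟩) fun v w c => ?_
  · rw [ha, v.2.1, map_smul, smul_smul, ← sg_xor]
  · rw [hb, v.2.2, map_smul, smul_smul, ← sg_xor]
  · have c' : ρ e v = ρ e w := congrArg Subtype.val c
    have := congrArg (ρ e⁻¹) c'
    simpa using this
end

theorem c3d (l3 : L3.{u}) (ind : Ind.{u}) (c3b : C3b.{u}) : C3d.{u} := by
  intro p _ H V _ _ _ _ _ ρ K A E x y hN h p2 _ st sr xE yE xA yA xyA x2 y2 xy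
  classical
  have nt : Nontrivial V := Finite.one_lt_card_iff_nontrivial.1 (lt_of_lt_of_le (by norm_num) hN)
  have two : (2 : ZMod p) ≠ 0 := fun c =>
    p2 ((Nat.prime_dvd_prime_iff_eq Fact.out Nat.prime_two).1 ((ZMod.natCast_eq_zero_iff 2 p).1 (by exact_mod_cast c))).symm
  have sgi : ∀ a b : Bool, a ≠ b → sg p a - sg p b ≠ 0 := fun a b ab c => by
    cases a <;> cases b <;> simp only [sg, ne_eq, not_true_eq_false, Bool.false_eq_true, if_false, if_true] at ab c
    · exact two (by linear_combination c)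
    · exact two (by linear_combination -c)
  obtain ⟨-, I⟩ := ind p V _ (eig ρ x y) fun i j ij => by
    by_cases c : i.down.1 = j.down.1
    · have c2 : j.down.2 ≠ i.down.2 := fun e => ij (ULift.ext _ _ (Prod.ext c e.symm))
      refine ⟨ρ y - sg p i.down.2 • LinearMap.id, fun l v hv => ?_, fun v hv => ?_, fun v hv e => ?_⟩
      · simp only [LinearMap.sub_apply, LinearMap.smul_apply, LinearMap.id_apply, hv.2]
        exact sub_mem (Submodule.smul_mem _ _ hv) (Submodule.smul_mem _ _ hv)
      · simp only [LinearMap.sub_apply, LinearMap.smul_apply, LinearMap.id_apply, hv.2, sub_self]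
      · simp only [LinearMap.sub_apply, LinearMap.smul_apply, LinearMap.id_apply, hv.2, ← sub_smul] at e
        exact (smul_eq_zero.1 e).resolve_left (sgi _ _ c2)
    · refine ⟨ρ x - sg p i.down.1 • LinearMap.id, fun l v hv => ?_, fun v hv => ?_, fun v hv e => ?_⟩
      · simp only [LinearMap.sub_apply, LinearMap.smul_apply, LinearMap.id_apply, hv.1]
        exact sub_mem (Submodule.smul_mem _ _ hv) (Submodule.smul_mem _ _ hv)
      · simp only [LinearMap.sub_apply, LinearMap.smul_apply, LinearMap.id_apply, hv.1, sub_self]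
      · simp only [LinearMap.sub_apply, LinearMap.smul_apply, LinearMap.id_apply, hv.1, ← sub_smul] at e
        exact (smul_eq_zero.1 e).resolve_left (sgi _ _ (Ne.symm c))
  have inv : ∀ {g : H}, g ^ 2 = 1 → ∀ w, ρ g (ρ g w) = w := fun {g} g2 w => by
    have : ρ (g * g) w = w := by rw [← sq, g2, map_one]; rfl
    rwa [map_mul] at this
  obtain ⟨s, v, v0, hv⟩ : ∃ (s : Bool) (v : V), v ≠ 0 ∧ ρ x v = sg p s • v := by
    obtain ⟨v, v0⟩ := exists_ne (0 : V)
    by_cases c : ρ x v + v = 0
    · exact ⟨true, v, v0, by simpa [sg] using eq_neg_of_add_eq_zero_left c⟩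
    · exact ⟨false, _, c, by simp [sg, inv x2, add_comm]⟩
  obtain ⟨t, w, w0, hw⟩ : ∃ (t : Bool) (w : V), w ≠ 0 ∧ w ∈ eig ρ x y ⟨(s, t)⟩ := by
    by_cases c : ρ y v + v = 0
    · exact ⟨true, v, v0, hv, by simpa [sg] using eq_neg_of_add_eq_zero_left c⟩
    · refine ⟨false, _, c, ?_, by simp [sg, inv y2, add_comm]⟩
      have := sn_comm ρ xy v
      simp only [sg, Bool.false_eq_true, if_false, one_smul] at this
      rw [map_add, this, hv, map_smul, smul_add]
  have nc : ∀ {g : H}, g ∈ E → g ∉ A → ∃ e ∈ E, g * e ≠ e * g := fun {g} gE gA => by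
    by_contra c
    push Not at c
    exact gA (st.zE g gE c)
  have sn : ∀ {e g : H}, e ∈ E → g ∈ E → g ^ 2 = 1 → ∃ b, Sn ρ e g b := fun {e g} eE gE g2 => by
    by_cases c : g * e = e * g
    · exact ⟨_, sn_comm ρ c⟩
    · exact ⟨_, sn_not st sr eE gE g2 c⟩
  have key : ∀ (a b a' b' : Bool) (e e' : H), Sn ρ e x a → Sn ρ e y b → Sn ρ e' x a' → Sn ρ e' y b' →
      (a, b) ≠ (false, false) → (a', b') ≠ (false, false) → (a, b) ≠ (a', b') →
      Nat.card (eig ρ x y ⟨(s, t)⟩) ^ 3 ≤ Nat.card V := by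
    intro a b a' b' e e' h1 h2 h3 h4 n1 n2 n3
    have := I ⟨(s, t)⟩ ⟨(xor a s, xor b t)⟩ ⟨(xor a' s, xor b' t)⟩
      (fun c => n1 (by have := congrArg ULift.down c; revert this; cases a <;> cases b <;> cases s <;> cases t <;> simp))
      (fun c => n2 (by have := congrArg ULift.down c; revert this; cases a' <;> cases b' <;> cases s <;> cases t <;> simp))
      (fun c => n3 (by
        have := congrArg ULift.down c; revert this
        cases a <;> cases b <;> cases a' <;> cases b' <;> cases s <;> cases t <;> simp)) inferInstance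
    refine le_trans ?_ this
    rw [pow_three']
    exact Nat.mul_le_mul (Nat.mul_le_mul le_rfl (eig_le ρ h1 h2 s t)) (eig_le ρ h3 h4 s t)
  have cube : Nat.card (eig ρ x y ⟨(s, t)⟩) ^ 3 ≤ Nat.card V := by
    obtain ⟨e, eE, he⟩ := nc (E.mul_mem xE yE) xyA
    obtain ⟨e1, e1E, h1⟩ := nc xE xA
    obtain ⟨e2, e2E, h2⟩ := nc yE yA
    obtain ⟨b1, hb1⟩ := sn e1E yE y2
    obtain ⟨b2, hb2⟩ := sn e2E xE x2
    by_cases cx : x * e = e * x <;> by_cases cy : y * e = e * y
    · exact (he (by rw [mul_assoc, cy, ← mul_assoc, cx, mul_assoc])).elim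
    · exact key _ _ _ _ e e1 (sn_comm ρ cx) (sn_not st sr eE yE y2 cy) (sn_not st sr e1E xE x2 h1) hb1
        (by simp) (by simp) (by simp)
    · exact key _ _ _ _ e e2 (sn_not st sr eE xE x2 cx) (sn_comm ρ cy) hb2 (sn_not st sr e2E yE y2 h2)
        (by simp) (by simp) (by simp)
    · refine (he (h.inj ?_)).elim
      ext u
      have a1 := sn_not st sr eE xE x2 cx
      have a2 := sn_not st sr eE yE y2 cy
      simp only [map_mul, Module.End.mul_apply]
      rw [a2, map_smul, a1]
      simp [sg]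
  refine l3 p H V ρ K (Subgroup.centralizer {x} ⊓ Subgroup.centralizer {y}) _ hN h (fun g hg u hu => ?_)
    (fun c => w0 ((Submodule.mem_bot _).1 (c ▸ hw))) cube ?_
  · have a1 := sn_comm ρ (Subgroup.mem_centralizer_iff.1 hg.1 x rfl) u
    have a2 := sn_comm ρ (Subgroup.mem_centralizer_iff.1 hg.2 y rfl) u
    simp only [sg, Bool.false_eq_true, if_false, one_smul] at a1 a2
    exact ⟨by rw [a1, hu.1, map_smul], by rw [a2, hu.2, map_smul]⟩
  · have b := c3b p H V ρ A E 2 st sr
    have b1 := Cfsg.Agent.Dg.cls_le st (by norm_num) xE x2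
    have b2 := Cfsg.Agent.Dg.cls_le st (by norm_num) yE y2
    calc _ ≤ _ := Subgroup.index_inf_le
      _ ≤ (2 * Module.finrank (ZMod p) V ^ 2) * (2 * Module.finrank (ZMod p) V ^ 2) :=
        Nat.mul_le_mul (by omega) (by omega)
      _ = _ := by ring

end Cfsg.Agent.H9.DG
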