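import Cfsg.Agent.H9.DG2
import Cfsg.Agent.H9.DG3
import Cfsg.Agent.H4.DGa
import Cfsg.Agent.H4.DGl
import Cfsg.Agent.H5.DGr
import Cfsg.Agent.H5.DGc
import Cfsg.Agent.H7.DGc
import Cfsg.Agent.H7.DGn
import Cfsg.Agent.H3.DGa
import Cfsg.Agent.Dg.C3c
import Cfsg.Agent.H6.DGa

set_option autoImplicit false

namespace Cfsg.Agent.H9.DG

universe u v

theorem p4 : P4.{u} :=
  p4_of H4.DL.l2z H5.DG.cy (H5.DG.c1 H4.DL.l2 H4.DL.l3 H4.DL.ind) (H7.DGc.c2 H4.DL.l2z) H3.DGa.c3a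
    (Dg.c3c H4.DL.l3 H4.DL.ind H5.DG.rr (Dg.c3b H4.DL.ind)) (c3d H4.DL.l3 H4.DL.ind (Dg.c3b H4.DL.ind))
    (H7.DGc.c3e H4.DL.l2)

theorem pp (p5 : P5.{u, v}) : PP.{u, v} := pp_of H4.DG.tr H4.DG.pb H6.DG.pr H6.DG.pc p5 (H6.DG.pa p4)

theorem pn (po : PO.{u, v}) : PN.{u, v} := H7.DGn.pn H4.DG.tr po

end Cfsg.Agent.H9.DG
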