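import Cfsg.Agent.H3.DR0

set_option autoImplicit false

namespace Cfsg.Agent.H9.DRk
open MulAction Finset Cfsg.Agent.H3.DR

universe u v

theorem pw (I b : ℕ) (l : ℝ) (hl : 0 ≤ l) (h : I ≤ b) :
    2 * l * ((I : ℝ) - 1) - l ^ 2 * b ≤ (I : ℝ) * (I - 1) / b := by
  rcases Nat.eq_zero_or_pos I with rfl | hI
  · have : (0 : ℝ) ≤ l ^ 2 * b := by positivity
    simp only [Nat.cast_zero, zero_mul, zero_div]
    linarith
  · have h1 : (1 : ℝ) ≤ I := by exact_mod_cast hI
    have h2 : (I : ℝ) ≤ b := by exact_mod_cast h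
    have hb : (0 : ℝ) < b := by linarith
    rw [le_div_iff₀ hb]
    nlinarith [sq_nonneg ((I : ℝ) - 1 - l * b)]

section
variable {G : Type u} {Ω : Type v} [Group G] [Fintype G] [MulAction G Ω] [Fintype Ω]
  {Θ : Type u} [Fintype Θ] {y : Θ → G} {J : Θ → Finset Ω} {m : ℕ} {p q : ℝ}

open Classical in
/-- the intersection number -/
noncomputable def II (J : Finset Ω) (x : G) : ℕ := #{c : Ω | x • c = c ∧ c ∈ J}

theorem II_le (J : Finset Ω) (x : G) : II J x ≤ fx Ω x := by
  classical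
  unfold II fx
  apply Finset.card_le_card
  intro c hc
  simp only [Finset.mem_filter, Finset.mem_univ, true_and] at hc ⊢
  exact hc.1

theorem II_mul (S : Sys G Ω y J m p q) (θ : Θ) (x : G) : II (J θ) (x * y θ) = II (J θ) x := by
  classical
  unfold II
  congr 1
  ext c
  simp only [Finset.mem_filter, Finset.mem_univ, true_and]
  constructor
  · rintro ⟨h1, h2⟩
    rw [mul_smul, S.fix θ c h2] at h1
    exact ⟨h1, h2⟩
  · rintro ⟨h1, h2⟩
    rw [mul_smul, S.fix θ c h2]
    exact ⟨h1, h2⟩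

open Classical in
theorem II_eq (J : Finset Ω) (x : G) :
    (II J x : ℝ) = ∑ c ∈ ({c : Ω | x • c = c} : Finset Ω), if c ∈ J then (1 : ℝ) else 0 := by
  unfold II
  rw [Finset.sum_boole, Finset.filter_filter]

theorem sumA (S : Sys G Ω y J m p q) (x : G) :
    ∑ θ, (II (J θ) x : ℝ) = fx Ω x * p * Fintype.card Θ := by
  classical
  simp only [II_eq]
  rw [Finset.sum_comm]
  have : ∀ c : Ω, ∑ θ, (if c ∈ J θ then (1 : ℝ) else 0) = p * Fintype.card Θ := by
    intro c
    rw [Finset.sum_boole, ← S.one c]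
  rw [Finset.sum_congr rfl (fun c _ => by convert this c)]
  rw [Finset.sum_const, nsmul_eq_mul, fx, mul_assoc]

theorem sumB (S : Sys G Ω y J m p q) (hm : 0 < m) (hp : 0 < p) (x : G) :
    ∑ θ, (fx Ω (x * y θ) : ℝ) ≤ (fx Ω x * p + Fintype.card Ω / m) * Fintype.card Θ := by
  classical
  have hm' : (0 : ℝ) < m := by exact_mod_cast hm
  have e1 : ∀ z : G, (fx Ω z : ℝ) = ∑ c : Ω, if z • c = c then (1 : ℝ) else 0 := by
    intro z
    rw [Finset.sum_boole, fx]
  have hT : (0 : ℝ) ≤ Fintype.card Θ := by positivity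
  have h1 : (1 - p) / m ≤ 1 / m := by
    apply div_le_div_of_nonneg_right _ hm'.le
    linarith
  have e2 : ∀ c : Ω, ∑ θ, (if (x * y θ) • c = c then (1 : ℝ) else 0) ≤
      ((if x • c = c then (1 : ℝ) else 0) * p + 1 / m) * Fintype.card Θ := by
    intro c
    rw [Finset.sum_boole]
    have e3 : ({θ | (x * y θ) • c = c} : Finset Θ) = ({θ | y θ • c = x⁻¹ • c} : Finset Θ) := by
      ext θ
      simp only [Finset.mem_filter, Finset.mem_univ, true_and, mul_smul, eq_inv_smul_iff]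
    rw [e3]
    by_cases hx : x • c = c
    · have hx' : x⁻¹ • c = c := by rw [inv_smul_eq_iff, hx]
      rw [hx', if_pos hx]
      refine le_trans (by convert S.dia c) ?_
      apply mul_le_mul_of_nonneg_right _ hT
      linarith
    · have hx' : c ≠ x⁻¹ • c := by
        intro h
        apply hx
        rw [eq_inv_smul_iff] at h
        exact h
      rw [if_neg hx]
      refine le_trans (by convert S.off c _ hx') ?_
      apply mul_le_mul_of_nonneg_right _ hT
      linarith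
  simp only [e1]
  rw [Finset.sum_comm]
  refine le_trans (Finset.sum_le_sum fun c _ => e2 c) (le_of_eq ?_)
  rw [← Finset.sum_mul, Finset.sum_add_distrib, ← Finset.sum_mul, Finset.sum_const, nsmul_eq_mul,
    Finset.card_univ]
  ring

theorem sumC (S : Sys G Ω y J m p q) (z : G) :
    ∑ θ, (II (J θ) z : ℝ) * (II (J θ) z - 1) ≤ fx Ω z * (fx Ω z - 1) * (q * Fintype.card Θ) := by
  classical
  set F : Finset Ω := {c : Ω | z • c = c} with hF
  have e0 : (fx Ω z : ℝ) = #F := by rw [fx]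
  have e1 : ∀ θ, (II (J θ) z : ℝ) * (II (J θ) z - 1) =
      ∑ c ∈ F, ∑ d ∈ F.erase c, if c ∈ J θ ∧ d ∈ J θ then (1 : ℝ) else 0 := by
    intro θ
    have e2 : (II (J θ) z : ℝ) = ∑ c ∈ F, if c ∈ J θ then (1 : ℝ) else 0 := by
      rw [II_eq]
    rw [e2, Finset.sum_mul]
    apply Finset.sum_congr rfl
    intro c hc
    by_cases h : c ∈ J θ
    · rw [if_pos h, one_mul, ← Finset.add_sum_erase F _ hc, if_pos h]
      simp only [h, true_and]
      ring
    · simp [h]
  simp only [e1]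
  rw [Finset.sum_comm]
  have e3 : ∀ c ∈ F, ∑ θ, ∑ d ∈ F.erase c, (if c ∈ J θ ∧ d ∈ J θ then (1 : ℝ) else 0) ≤
      ((#F : ℝ) - 1) * (q * Fintype.card Θ) := by
    intro c hc
    rw [Finset.sum_comm]
    have e4 : ∀ d ∈ F.erase c, ∑ θ, (if c ∈ J θ ∧ d ∈ J θ then (1 : ℝ) else 0) ≤ q * Fintype.card Θ := by
      intro d hd
      rw [Finset.sum_boole]
      convert S.two c d (Finset.ne_of_mem_erase hd).symm
    refine le_trans (Finset.sum_le_sum e4) (le_of_eq ?_)
    rw [Finset.sum_const, nsmul_eq_mul, Finset.card_erase_of_mem hc,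
      Nat.cast_sub (Finset.card_pos.mpr ⟨c, hc⟩), Nat.cast_one]
  refine le_trans (Finset.sum_le_sum e3) (le_of_eq ?_)
  rw [Finset.sum_const, nsmul_eq_mul, e0]
  ring

theorem low (S : Sys G Ω y J m p q) [Nonempty Ω] (hm : 0 < m) (hp : 0 < p) (x : G) :
    (max (fx Ω x * p - 1) 0) ^ 2 / (fx Ω x * p + Fintype.card Ω / m) * Fintype.card Θ ≤
      ∑ θ, (II (J θ) (x * y θ) : ℝ) * (II (J θ) (x * y θ) - 1) / fx Ω (x * y θ) := by
  have hm' : (0 : ℝ) < m := by exact_mod_cast hm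
  have hn : (0 : ℝ) < Fintype.card Ω := by exact_mod_cast Fintype.card_pos
  set A : ℝ := max (fx Ω x * p - 1) 0 with hA
  set B : ℝ := fx Ω x * p + Fintype.card Ω / m with hB
  have hB0 : 0 < B := by positivity
  have hA0 : 0 ≤ A := le_max_right _ _
  have hl : 0 ≤ A / B := by positivity
  have hAA : A * (fx Ω x * p - 1) = A ^ 2 := by
    rcases le_total (fx Ω x * p - 1) 0 with h | h
    · rw [hA, max_eq_right h]; ring
    · rw [hA, max_eq_left h]; ring
  refine le_trans ?_ (Finset.sum_le_sum fun θ _ => pw _ _ (A / B) hl (II_le (J θ) (x * y θ)))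
  simp only [II_mul S]
  rw [Finset.sum_sub_distrib, ← Finset.mul_sum, ← Finset.mul_sum, Finset.sum_sub_distrib, sumA S,
    Finset.sum_const, nsmul_eq_mul, Finset.card_univ]
  have h1 := mul_le_mul_of_nonneg_left (sumB S hm hp x) (sq_nonneg (A / B))
  rw [← hB] at h1
  have h2 : 2 * (A / B) * (fx Ω x * p * Fintype.card Θ - Fintype.card Θ * 1) =
      2 * (A ^ 2 / B * Fintype.card Θ) := by
    rw [← hAA]; ring
  have h3 : (A / B) ^ 2 * (B * Fintype.card Θ) = A ^ 2 / B * Fintype.card Θ := by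
    field_simp
  rw [h2]
  rw [h3] at h1
  linarith

theorem up (S : Sys G Ω y J m p q) (z : G) :
    ∑ θ, (II (J θ) z : ℝ) * (II (J θ) z - 1) / fx Ω z ≤
      max ((fx Ω z : ℝ) - 1) 0 * (q * Fintype.card Θ) := by
  rw [← Finset.sum_div]
  rcases Nat.eq_zero_or_pos (fx Ω z) with h | h
  · rw [h]; simp
  · have h1 : (1 : ℝ) ≤ fx Ω z := by exact_mod_cast h
    rw [div_le_iff₀ (by linarith), max_eq_left (by linarith)]
    refine le_trans (sumC S z) (le_of_eq ?_)
    ring

end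

theorem pk (hB : PB.{u, v}) : PK.{u, v} := by
  intro G Ω _ _ _ _ _ Θ _ y J m p q hT hm hp _ S
  obtain ⟨-, h2, -⟩ := hB G Ω hT
  have hne := S.ne
  have hΘ : (0 : ℝ) < Fintype.card Θ := by exact_mod_cast Fintype.card_pos
  have hG : (0 : ℝ) < Fintype.card G := by exact_mod_cast Fintype.card_pos
  unfold Kq
  rw [div_le_iff₀ hG]
  apply le_of_mul_le_mul_right _ hΘ
  rw [Finset.sum_mul]
  refine le_trans (Finset.sum_le_sum fun x _ => low S hm hp x) ?_
  rw [Finset.sum_comm]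
  have e : ∀ θ, ∑ x : G, (II (J θ) (x * y θ) : ℝ) * (II (J θ) (x * y θ) - 1) / fx Ω (x * y θ) =
      ∑ z : G, (II (J θ) z : ℝ) * (II (J θ) z - 1) / fx Ω z := fun θ =>
    Equiv.sum_comp (Equiv.mulRight (y θ)) (fun z => (II (J θ) z : ℝ) * (II (J θ) z - 1) / fx Ω z)
  simp only [e]
  rw [Finset.sum_comm]
  refine le_trans (Finset.sum_le_sum fun z _ => up S z) (le_of_eq ?_)
  rw [← Finset.sum_mul, ← h2]
  ring

end Cfsg.Agent.H9.DRk
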